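import Cfsg.Agent.H79.Count
import Cfsg.Agent.H19.Nilp
import Cfsg.Agent.H21.PStab2
import Cfsg.Agent.H22.PSolvable

/-!
Group-theoretic lemmas for Flavell's bound: fixed point ratios of an element of odd prime order
whose conjugates generate a solvable group.
-/

set_option autoImplicit false

namespace Cfsg.Agent.H50

open Subgroup
open scoped commutatorElement Pointwise

variable {G : Type*} [Group G]

theorem fd_eq_top {x : G} (hgen : normalClosure {x} = ⊤) (L : Subgroup G) [L.Normal]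
    (hx : x ∈ L) : L = ⊤ :=
  top_le_iff.1 (hgen ▸ normalClosure_le_normal (Set.singleton_subset_iff.2 hx))

theorem fd_gen_map {x : G} (hgen : normalClosure {x} = ⊤) {Q : Type*} [Group Q] (f : G →* Q)
    (hf : Function.Surjective f) : normalClosure {f x} = ⊤ := by
  have h := fd_eq_top hgen ((normalClosure {f x}).comap f) (subset_normalClosure rfl)
  rw [eq_top_iff]
  intro q _
  obtain ⟨g, rfl⟩ := hf q
  exact (h ▸ mem_top g : g ∈ (normalClosure {f x}).comap f)

/-- If `⁅w, y⁆` commutes with `y`, its order divides that of `y`. -/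
theorem fd_comm_pow {w y : G} (h : Commute ⁅w, y⁆ y) (i : ℕ) : ⁅w, y ^ i⁆ = ⁅w, y⁆ ^ i := by
  have h1 : w * y * w⁻¹ = ⁅w, y⁆ * y := by rw [commutatorElement_def]; group
  rw [commutatorElement_def, ← conj_pow, h1, h.mul_pow]; group

theorem fd_three {W : Subgroup G} [hW : W.Normal] (hc : ∀ a ∈ W, ∀ b ∈ W, a * b = b * a) {x : G}
    {p : ℕ} (hp : Odd p) (hx : x ^ p = 1) {u : G} (hu : u ∈ W) (h : ¬ Commute u x) :
    ∃ v ∈ W, ¬ Commute v x ∧ ¬ Commute (u⁻¹ * v) x := by
  by_cases h2 : Commute (u * u) x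
  · have hv : x * u * x⁻¹ ∈ W := hW.conj_mem u hu x
    refine ⟨x * u * x⁻¹, hv, fun h3 => h ?_, fun h3 => h ?_⟩
    · have := h3.eq
      rw [Commute, SemiconjBy]
      calc u * x = x⁻¹ * (x * u * x⁻¹ * x) * x := by group
        _ = x * u := by rw [this]; group
    · have h4 : u⁻¹ * (x * u * x⁻¹) = ⁅u⁻¹, x⁆ := by rw [commutatorElement_def]; group
      rw [h4] at h3
      have h5 : ⁅u⁻¹, x⁆ ^ p = 1 := by rw [← fd_comm_pow h3, hx, commutatorElement_one_right]
      have h6 : ⁅u⁻¹, x⁆ ^ 2 = 1 := by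
        have e1 := hc _ hv _ (W.inv_mem hu)
        have e2 := h2.eq
        rw [← h4, sq]
        calc u⁻¹ * (x * u * x⁻¹) * (u⁻¹ * (x * u * x⁻¹))
            = u⁻¹ * (x * u * x⁻¹ * u⁻¹) * (x * u * x⁻¹) := by group
          _ = (u * u)⁻¹ * (x * (u * u)) * x⁻¹ := by rw [e1]; group
          _ = 1 := by rw [← e2]; group
      obtain ⟨j, rfl⟩ := hp
      rw [pow_succ, pow_mul, h6, one_pow, one_mul, commutatorElement_eq_one_iff_commute] at h5
      simpa using h5.inv_left
  · exact ⟨u * u, W.mul_mem hu hu, h2, by simpa using h⟩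

theorem fd_translate [Finite G] [Group.IsSolvable G] {x : G} (hgen : normalClosure {x} = ⊤)
    {p : ℕ} (hp : Odd p) (hx : x ^ p = 1) {M : Subgroup G} (hM : IsCoatom M) (hxM : x ∈ M) :
    ∃ u v : G, ∀ w ∈ ({u, v, u⁻¹ * v} : Set G), ∀ g, g⁻¹ * x * g ∈ M →
      (w * g)⁻¹ * x * (w * g) ∉ M := by
  classical
  obtain ⟨n, hn⟩ := (Group.isSolvable_def G).1 inferInstance
  have hex : ∃ n, derivedSeries G n ≤ M := ⟨n, hn ▸ bot_le⟩
  obtain ⟨m, hm⟩ : ∃ m, Nat.find hex = m + 1 := Nat.exists_eq_succ_of_ne_zero fun h => by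
    have := Nat.find_spec hex
    rw [h, derivedSeries_zero, top_le_iff] at this
    exact hM.1 this
  set W := derivedSeries G m
  haveI hWn : W.Normal := derivedSeries_normal G m
  have hW : ¬ W ≤ M := Nat.find_min hex (by omega)
  have hW' : ⁅W, W⁆ ≤ M.normalCore := by
    have := Nat.find_spec hex
    rw [hm, derivedSeries_succ] at this
    exact normal_le_normalCore.2 this
  have hsup : W ⊔ M = ⊤ := by
    rw [sup_comm]; exact hM.2 _ (left_lt_sup.2 hW)
  have hdec : ∀ g : G, ∃ w ∈ W, ∃ m ∈ M, w * m = g := fun g => by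
    have : g ∈ (W : Set G) * (M : Set G) := by rw [← normal_mul, hsup]; trivial
    exact this
  have hWM : W ⊓ M ≤ M.normalCore := by
    haveI : (W ⊓ M).Normal := ⟨fun a ha g => by
      obtain ⟨w, hw, m, hm, rfl⟩ := hdec g
      have h1 : m * a * m⁻¹ ∈ W ⊓ M :=
        ⟨hWn.conj_mem a ha.1 m, M.mul_mem (M.mul_mem hm ha.2) (M.inv_mem hm)⟩
      refine ⟨hWn.conj_mem a ha.1 _, ?_⟩
      have h2 : w * m * a * (w * m)⁻¹ = ⁅w, m * a * m⁻¹⁆ * (m * a * m⁻¹) := by
        rw [commutatorElement_def]; group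
      rw [h2]
      exact M.mul_mem (normalCore_le M (hW' (commutator_mem_commutator hw h1.1))) h1.2⟩
    exact normal_le_normalCore.2 inf_le_right
  let π := QuotientGroup.mk' M.normalCore
  have hπ : ∀ g, π g = 1 ↔ g ∈ M.normalCore := fun g => QuotientGroup.eq_one_iff g
  have key : ∀ w ∈ W, (w⁻¹ * x * w ∈ M ↔ Commute (π w) (π x)) := fun w hw => by
    have h1 : w⁻¹ * x * w = ⁅w⁻¹, x⁆ * x := by rw [commutatorElement_def]; group
    have h2 : ⁅w⁻¹, x⁆ ∈ W := by
      rw [commutatorElement_def, inv_inv, mul_assoc, mul_assoc, ← mul_assoc x]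
      exact W.mul_mem (W.inv_mem hw) (hWn.conj_mem w hw x)
    rw [h1, M.mul_mem_cancel_right hxM, ← Commute.inv_left_iff, ← map_inv,
      ← commutatorElement_eq_one_iff_commute, ← map_commutatorElement, hπ]
    exact ⟨fun h => hWM ⟨h2, h⟩, fun h => normalCore_le M h⟩
  haveI : (W.map π).Normal := hWn.map π (QuotientGroup.mk'_surjective _)
  have hc : ∀ a ∈ W.map π, ∀ b ∈ W.map π, a * b = b * a := by
    rintro _ ⟨a, ha, rfl⟩ _ ⟨b, hb, rfl⟩
    rw [← commutatorElement_eq_one_iff_mul_comm, ← map_commutatorElement, hπ]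
    exact hW' (commutator_mem_commutator ha hb)
  obtain ⟨u, hu, hux⟩ : ∃ u ∈ W, ¬ Commute (π u) (π x) := by
    by_contra hcon
    push Not at hcon
    have h1 := fd_eq_top (fd_gen_map hgen π (QuotientGroup.mk'_surjective _))
      (centralizer (W.map π : Set _)) (by rintro _ ⟨a, ha, rfl⟩; exact (hcon a ha).eq)
    haveI : M.Normal := ⟨fun a ha g => by
      obtain ⟨w, hw, m, hm, rfl⟩ := hdec g
      have h2 : w * m * a * (w * m)⁻¹ = ⁅w, m * a * m⁻¹⁆ * (m * a * m⁻¹) := by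
        rw [commutatorElement_def]; group
      rw [h2]
      refine M.mul_mem (normalCore_le M ((hπ _).1 ?_))
        (M.mul_mem (M.mul_mem hm ha) (M.inv_mem hm))
      rw [map_commutatorElement, commutatorElement_eq_one_iff_mul_comm]
      exact (h1 ▸ mem_top _ : π _ ∈ centralizer (W.map π : Set _)) _ ⟨w, hw, rfl⟩⟩
    exact hM.1 (fd_eq_top hgen M hxM)
  obtain ⟨_, ⟨v, hv, rfl⟩, h1, h2⟩ := fd_three hc hp (x := π x) (by rw [← map_pow, hx, map_one])
    ⟨u, hu, rfl⟩ hux
  have main : ∀ w ∈ W, ¬ Commute (π w) (π x) → ∀ g, g⁻¹ * x * g ∈ M →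
      (w * g)⁻¹ * x * (w * g) ∉ M := fun w hw hwx g hg hwg => by
    obtain ⟨a, ha, m, hm, rfl⟩ := hdec g
    have e : ∀ b, (b * m)⁻¹ * x * (b * m) ∈ M → b⁻¹ * x * b ∈ M := fun b hb => by
      have := M.mul_mem (M.mul_mem hm hb) (M.inv_mem hm)
      convert this using 1; group
    have e1 := (key a ha).1 (e a hg)
    have e2 := (key _ (W.mul_mem hw ha)).1 (e _ (by rwa [mul_assoc w]))
    rw [map_mul] at e2
    exact hwx (by simpa using e2.mul_left e1.inv_left)
  refine ⟨u, v, ?_⟩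
  rintro w (rfl | rfl | rfl)
  · exact main _ hu hux
  · exact main _ hv h1
  · exact main _ (W.mul_mem (W.inv_mem hu) hv) (by rwa [map_mul, map_inv])

/-- The fixed point ratio is at most `1 / 3`. -/
theorem fd_pl [Finite G] [Group.IsSolvable G] {x : G} (hgen : normalClosure {x} = ⊤)
    {p : ℕ} (hp : Odd p) (hx : x ^ p = 1) {Ω : Type*} [Finite Ω] [MulAction G Ω]
    [MulAction.IsPretransitive G Ω] [Nontrivial Ω] :
    3 * Nat.card {ω : Ω // x • ω = ω} ≤ Nat.card Ω := by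
  rcases isEmpty_or_nonempty {ω : Ω // x • ω = ω} with h | ⟨⟨ω₀, h0⟩⟩
  · simp
  have hH : MulAction.stabilizer G ω₀ ≠ ⊤ := fun h => by
    obtain ⟨ω, hω⟩ := exists_ne ω₀
    obtain ⟨g, rfl⟩ := MulAction.exists_smul_eq G ω₀ ω
    exact hω (h ▸ mem_top g : g ∈ MulAction.stabilizer G ω₀)
  obtain ⟨M, hM, hHM⟩ := (eq_top_or_exists_le_coatom _).resolve_left hH
  obtain ⟨u, v, huv⟩ := fd_translate hgen hp hx hM (hHM h0)
  have key : ∀ w ∈ ({u, v, u⁻¹ * v} : Set G), ∀ a b : {ω : Ω // x • ω = ω}, w • a.1 ≠ b.1 := by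
    rintro w hw ⟨a, ha⟩ ⟨b, hb⟩ (rfl : w • a = b)
    obtain ⟨g, rfl⟩ := MulAction.exists_smul_eq G ω₀ a
    refine huv w hw g (hHM ?_) (hHM ?_)
    · rw [MulAction.mem_stabilizer_iff, mul_smul, mul_smul, ha, inv_smul_smul]
    · rw [MulAction.mem_stabilizer_iff, mul_smul, mul_smul, mul_smul w, hb, ← mul_smul w,
        inv_smul_smul]
  let e : Fin 3 → G := ![1, u, v]
  let f : Fin 3 × {ω : Ω // x • ω = ω} → Ω := fun z => e z.1 • z.2.1
  have hf : Function.Injective f := by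
    rintro ⟨i, a⟩ ⟨j, b⟩ (h : e i • a.1 = e j • b.1)
    have hij : i = j := by
      fin_cases i <;> fin_cases j <;> simp only [e, Fin.zero_eta, Fin.mk_one, Fin.reduceFinMk,
        Matrix.cons_val_zero, Matrix.cons_val_one, Matrix.cons_val, one_smul] at h ⊢
      · exact absurd h.symm (key u (by simp) b a)
      · exact absurd h.symm (key v (by simp) b a)
      · exact absurd h (key u (by simp) a b)
      · exact absurd (by rw [mul_smul, ← h, inv_smul_smul]) (key (u⁻¹ * v) (by simp) b a)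
      · exact absurd h (key v (by simp) a b)
      · exact absurd (by rw [mul_smul, h, inv_smul_smul]) (key (u⁻¹ * v) (by simp) a b)
    subst hij
    rw [Subtype.ext (smul_left_cancel _ h)]
  have := Nat.card_le_card_of_injective f hf
  simpa using this

theorem fd_arith {p r b c k : ℕ} (hp : p.Prime) (h5 : 5 ≤ p) (hr : r.Prime) (hb : 2 ≤ b)
    (hk : p * k + r ^ c = r ^ b * r ^ c) : 4 * (k + r ^ c) ≤ r ^ b * r ^ c := by
  have h1 : r ^ 2 ∣ r ^ b := pow_dvd_pow r hb
  have h2 : r ^ 2 ≤ r ^ b := Nat.pow_le_pow_right hr.pos hb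
  have hr2 := hr.two_le
  obtain ⟨J, hJ⟩ : ∃ J, r ^ b = J + 1 := ⟨r ^ b - 1, by have := Nat.pow_pos (n := b) hr.pos; omega⟩
  rw [hJ] at hk h1 h2 ⊢
  have h3 : p * k = J * r ^ c := by linarith
  have h4 : 4 * J + 4 * p ≤ p * (J + 1) := by
    have h6 : p ≤ J ∧ (p = 5 → 15 ≤ J) := by
      by_cases hrp : r = p
      · subst hrp
        exact ⟨by nlinarith, fun h => by subst h; omega⟩
      · have h7 : p ∣ J := (Nat.Coprime.pow_right c
          ((Nat.coprime_primes hp hr).2 (Ne.symm hrp))).dvd_of_dvd_mul_right ⟨k, h3.symm⟩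
        refine ⟨Nat.le_of_dvd (by nlinarith) h7, ?_⟩
        rintro rfl
        by_contra h8
        have h9 : r ≤ 3 := by nlinarith
        interval_cases r <;> omega
    by_cases h : p = 5
    · have := h6.2 h
      subst h; omega
    · have h7 : 7 ≤ p := by
        have : p ≠ 6 := by rintro rfl; exact absurd hp (by decide)
        omega
      nlinarith [h6.1]
  refine Nat.le_of_mul_le_mul_left ?_ hp.pos
  calc p * (4 * (k + r ^ c)) = (4 * J + 4 * p) * r ^ c := by linarith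
    _ ≤ p * (J + 1) * r ^ c := Nat.mul_le_mul_right _ h4
    _ = _ := by ring

section minimal

variable {N : Subgroup G} [hNn : N.Normal]

theorem fd_comm_le [Group.IsSolvable G] (hN : ¬ N ≤ center G)
    (hmin : ∀ L : Subgroup G, L.Normal → L ≤ N → L ≤ center G ∨ L = N) : ⁅N, N⁆ ≤ center G := by
  refine (hmin _ inferInstance (commutator_le_left _ _)).resolve_right fun h => hN ?_
  by_contra h1
  exact (Group.IsSolvable.commutator_lt_of_ne_bot (H := N) fun h0 => h1 (h0 ▸ bot_le)).ne h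

theorem fd_cent_le (hN : ¬ N ≤ centralizer (N : Set G))
    (hmin : ∀ L : Subgroup G, L.Normal → L ≤ N → L ≤ center G ∨ L = N) :
    N ⊓ centralizer (N : Set G) ≤ center G :=
  (hmin _ inferInstance inf_le_left).resolve_right fun h => hN (h.ge.trans inf_le_right)

omit hNn in
theorem fd_min_map (hmin : ∀ L : Subgroup G, L.Normal → L ≤ N → L ≤ center G ∨ L = N)
    [N.Normal] (L : Subgroup (G ⧸ center G)) (hL : L.Normal)
    (h : L ≤ N.map (QuotientGroup.mk' (center G))) :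
    L = ⊥ ∨ L = N.map (QuotientGroup.mk' (center G)) := by
  rcases hmin (N ⊓ L.comap (QuotientGroup.mk' (center G))) inferInstance inf_le_left with h1 | h1
  · refine Or.inl (eq_bot_iff.2 fun l hl => ?_)
    obtain ⟨n, hn, rfl⟩ := h hl
    exact (QuotientGroup.eq_one_iff n).2 (h1 ⟨hn, hl⟩)
  · exact Or.inr (le_antisymm h (map_le_iff_le_comap.2 (h1 ▸ inf_le_right)))

theorem fd_not_cent {x : G} (hgen : normalClosure {x} = ⊤)
    (hN : ¬ N ≤ centralizer (N : Set G)) : ∃ n ∈ N, ⁅n, x⁆ ∉ center G := by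
  by_contra hcon
  push Not at hcon
  let π := QuotientGroup.mk' (center G)
  haveI : (N.map π).Normal := hNn.map π (QuotientGroup.mk'_surjective _)
  have h1 := fd_eq_top (fd_gen_map hgen π (QuotientGroup.mk'_surjective _))
    (centralizer (N.map π : Set _)) (by
      rintro _ ⟨a, ha, rfl⟩
      rw [← commutatorElement_eq_one_iff_mul_comm, ← map_commutatorElement]
      exact (QuotientGroup.eq_one_iff _).2 (hcon a ha))
  have h2 : ⁅N, ⊤⁆ ≤ center G := commutator_le.2 fun a ha g _ => by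
    refine (QuotientGroup.eq_one_iff _).1 ?_
    change π _ = 1
    rw [map_commutatorElement, commutatorElement_eq_one_iff_mul_comm]
    exact (h1 ▸ mem_top _ : π g ∈ centralizer (N.map π : Set _)) _ ⟨a, ha, rfl⟩
  have h3 : ⁅⁅N, ⊤⁆, (⊤ : Subgroup G)⁆ = ⊥ :=
    commutator_eq_bot_iff_le_centralizer.2 (h2.trans (center_le_centralizer _))
  have h4 : ⁅⁅⊤, ⊤⁆, N⁆ = ⊥ :=
    commutator_commutator_eq_bot_of_rotate (by rwa [commutator_comm ⊤ N]) h3
  rw [commutator_eq_bot_iff_le_centralizer] at h4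
  let π' := QuotientGroup.mk' (centralizer (N : Set G))
  have h5 : ∀ a b : G ⧸ centralizer (N : Set G), a * b = b * a := fun a b => by
    obtain ⟨a, rfl⟩ := QuotientGroup.mk'_surjective _ a
    obtain ⟨b, rfl⟩ := QuotientGroup.mk'_surjective _ b
    rw [← commutatorElement_eq_one_iff_mul_comm, ← map_commutatorElement]
    exact (QuotientGroup.eq_one_iff _).2 (h4 (commutator_mem_commutator trivial trivial))
  haveI : (zpowers (π' x)).Normal := ⟨fun a ha g => by rwa [h5 g a, mul_inv_cancel_right]⟩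
  have h6 := fd_eq_top (fd_gen_map hgen π' (QuotientGroup.mk'_surjective _)) (zpowers (π' x))
    (mem_zpowers _)
  haveI : IsCyclic (G ⧸ centralizer (N : Set G)) := ⟨π' x, fun g => (h6 ▸ mem_top g : g ∈ zpowers _)⟩
  refine hN fun a ha b hb => ?_
  refine congrArg Subtype.val (commutative_of_cyclic_center_quotient (π'.comp N.subtype) ?_
    ⟨b, hb⟩ ⟨a, ha⟩)
  intro c hc
  rw [mem_center_iff]
  exact fun d => Subtype.ext (((QuotientGroup.eq_one_iff _).1 hc) d d.2)

theorem fd_perp {c n x : G} (h1 : ⁅c, n⁆ ∈ center G) (h2 : ⁅c, x⁆ ∈ center G) :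
    Commute c ⁅n, x⁆ := by
  have e1 : c * n * c⁻¹ = ⁅c, n⁆ * n := by rw [commutatorElement_def]; group
  have e2 : c * x * c⁻¹ = ⁅c, x⁆ * x := by rw [commutatorElement_def]; group
  have e3 : c * ⁅n, x⁆ * c⁻¹ = ⁅n, x⁆ := by
    rw [conjugate_commutatorElement, e1, e2]
    generalize ⁅c, n⁆ = w at h1
    generalize ⁅c, x⁆ = z at h2
    rw [mem_center_iff] at h1 h2
    simp only [commutatorElement_def, mul_inv_rev]
    calc w * n * (z * x) * (n⁻¹ * w⁻¹) * (x⁻¹ * z⁻¹)
        = (w * (n * (z * x) * n⁻¹)) * w⁻¹ * (x⁻¹ * z⁻¹) := by group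
      _ = n * (z * (x * n⁻¹ * x⁻¹)) * z⁻¹ := by rw [← h1]; group
      _ = _ := by rw [← h2]; group
  rw [Commute, SemiconjBy, ← e3]
  rw [e3, ← mul_inv_eq_iff_eq_mul, e3]

theorem fd_not_quad [Finite G] [Group.IsSolvable G] {y : G} (hgen : normalClosure {y} = ⊤)
    {p : ℕ} (hp : p.Prime) (h5 : 5 ≤ p) (hy : y ^ p = 1) {r : ℕ} (hr : r.Prime)
    (hc : IsMulCommutative N) (he : ∀ w ∈ N, w ^ r = 1)
    (hmin : ∀ L : Subgroup G, L.Normal → L ≤ N → L = ⊥ ∨ L = N)
    (hq : ∀ w ∈ N, Commute ⁅w, y⁆ y) {w : G} (hw : w ∈ N) : ⁅w, y⁆ = 1 := by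
  have hm : ∀ g, ∀ w ∈ N, ⁅w, g⁆ ∈ N := fun g w hw => by
    rw [commutatorElement_def, mul_assoc, mul_assoc, ← mul_assoc g]
    exact N.mul_mem hw (hNn.conj_mem _ (N.inv_mem hw) g)
  by_cases hrp : r = p
  · subst hrp
    haveI := Fact.mk hr
    have hst := (H21.quadStable_of_isPSolvable (X := G) (p := r) (by omega)
      H22.isPSolvable_of_isSolvable (fun h => by omega)).isPStableOn N ⟨hc, he⟩ y (by
        rw [commutator_eq_bot_iff_le_centralizer, commutator_le]
        rintro a ha _ ⟨i, rfl⟩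
        obtain ⟨j, hj⟩ := (mem_powers_iff_mem_zpowers (x := y) (y := y ^ i)).2 ⟨i, rfl⟩
        rintro _ ⟨l, rfl⟩
        change y ^ l * ⁅a, y ^ i⁆ = ⁅a, y ^ i⁆ * y ^ l
        rw [← (show y ^ j = y ^ i from hj), fd_comm_pow (hq a ha)]
        exact (((hq a ha).pow_left j).zpow_right l).eq.symm)
    have h1 := fd_eq_top (fd_gen_map hgen (QuotientGroup.mk' (centralizer (N : Set G)))
      (QuotientGroup.mk'_surjective _)) _ hst
    have h2 : IsPGroup r (MulAut.conjNormal (H := N)).range := by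
      rintro ⟨_, g, rfl⟩
      obtain ⟨k, hk⟩ := H22.isPGroup_pCore (p := r) (G := G ⧸ centralizer (N : Set G))
        ⟨(g : G ⧸ centralizer (N : Set G)), h1 ▸ mem_top _⟩
      have h3 : g ^ r ^ k ∈ centralizer (N : Set G) :=
        (QuotientGroup.eq_one_iff _).1 (congrArg Subtype.val hk)
      refine ⟨k, Subtype.ext ?_⟩
      change MulAut.conjNormal g ^ r ^ k = 1
      rw [← map_pow]
      ext a
      rw [MulAut.conjNormal_apply, ← h3 a a.2]
      simp
    by_contra hne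
    have hN1 : r ∣ Nat.card N := by
      have : orderOf (⟨_, hm y w hw⟩ : N) = r :=
        orderOf_eq_prime (Subtype.ext (he _ (hm y w hw))) fun h => hne (congrArg Subtype.val h)
      exact this ▸ orderOf_dvd_natCard _
    obtain ⟨b, hb, hb1⟩ := h2.exists_fixed_point_of_prime_dvd_card_of_fixed_point N hN1
      (a := 1) fun g => map_one g.1
    have h4 := H19.le_centralizer_of_minimal_normal (M := ⊤) hmin b.2
      (fun h => hb1 (Subtype.ext h.symm)) fun g _ => by
        have := congrArg Subtype.val (hb ⟨_, g, rfl⟩)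
        change g * b * g⁻¹ = b at this
        rw [← mul_inv_eq_iff_eq_mul, this]
    exact hne (commutatorElement_eq_one_iff_mul_comm.2 (h4 (mem_top y) w hw))
  · have h1 : ⁅w, y⁆ ^ p = 1 := by rw [← fd_comm_pow (hq w hw), hy, commutatorElement_one_right]
    have h2 := Nat.dvd_gcd (orderOf_dvd_of_pow_eq_one (he _ (hm y w hw)))
      (orderOf_dvd_of_pow_eq_one h1)
    rwa [(Nat.coprime_primes hr hp).2 hrp, Nat.dvd_one, orderOf_eq_one_iff] at h2

/-- The fixed point ratio on the chief factor `N / Z(N)`. -/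
theorem fd_il [Finite G] [Group.IsSolvable G] {x : G} (hgen : normalClosure {x} = ⊤)
    {p : ℕ} (hp : p.Prime) (h5 : 5 ≤ p) (hx : x ^ p = 1) (hN : ¬ N ≤ centralizer (N : Set G))
    (hmin : ∀ L : Subgroup G, L.Normal → L ≤ N → L ≤ center G ∨ L = N) {k : ℕ}
    (hk : p * k + Nat.card ↥(N.map (QuotientGroup.mk' (center G)) ⊓
      centralizer {QuotientGroup.mk' (center G) x}) =
        Nat.card (N.map (QuotientGroup.mk' (center G)))) :
    4 * (k + Nat.card ↥(N.map (QuotientGroup.mk' (center G)) ⊓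
      centralizer {QuotientGroup.mk' (center G) x})) ≤
        Nat.card (N.map (QuotientGroup.mk' (center G))) := by
  set π := QuotientGroup.mk' (center G)
  have hπ : ∀ g, π g = 1 ↔ g ∈ center G := fun g => QuotientGroup.eq_one_iff g
  set W := N.map π
  set C := W ⊓ centralizer {π x}
  haveI : W.Normal := hNn.map π (QuotientGroup.mk'_surjective _)
  have hNZ : ¬ N ≤ center G := fun h => hN (h.trans (center_le_centralizer _))
  have hNN := fd_comm_le hNZ hmin
  obtain ⟨n₀, hn₀, hn₀x⟩ := fd_not_cent hgen hN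
  have hW : W ≠ ⊥ := fun h => hNZ fun n hn => (hπ n).1 (mem_bot.1 (h ▸ ⟨n, hn, rfl⟩ : π n ∈ ⊥))
  obtain ⟨hc, r, hr, -, he, hWr⟩ := H19.minimal_normal_of_solvable W hW (fd_min_map hmin)
  haveI := Fact.mk hr
  obtain ⟨_, ⟨n, hn, rfl⟩, hnq⟩ : ∃ w ∈ W, ¬ Commute ⁅w, π x⁆ (π x) := by
    by_contra hcon
    push Not at hcon
    refine hn₀x ((hπ _).1 ?_)
    rw [map_commutatorElement]
    exact fd_not_quad (fd_gen_map hgen π (QuotientGroup.mk'_surjective _)) hp h5
      (by rw [← map_pow, hx, map_one]) hr hc he (fd_min_map hmin) hcon ⟨n₀, hn₀, rfl⟩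
  have ht : ⁅n, x⁆ ∈ N := by
    rw [commutatorElement_def, mul_assoc, mul_assoc, ← mul_assoc x]
    exact N.mul_mem hn (hNn.conj_mem _ (N.inv_mem hn) x)
  have htC : (⟨π ⁅n, x⁆, _, ht, rfl⟩ : W) ∉ C.subgroupOf W := fun h => hnq (by
    rw [← map_commutatorElement]; exact mem_centralizer_singleton_iff.1 h.2)
  obtain ⟨b, hb⟩ := hWr.index (C.subgroupOf W)
  obtain ⟨c, hc'⟩ := IsPGroup.iff_card.1 (hWr.to_le (inf_le_left : C ≤ W))
  have hcard : Nat.card W = r ^ b * r ^ c := by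
    rw [← hb, ← hc', ← Nat.card_congr (subgroupOfEquivOfLe (inf_le_left : C ≤ W)).toEquiv,
      index_mul_card]
  rw [hcard, hc'] at hk ⊢
  refine fd_arith hp h5 hr ?_ hk
  by_contra hb2
  have hb0 : b ≠ 0 := by
    rintro rfl
    rw [pow_zero, index_eq_one] at hb
    exact htC (hb ▸ mem_top _)
  obtain rfl : b = 1 := by omega
  rw [pow_one] at hb
  have h1 := H79.sup_zpowers_eq_top_of_index_prime hr hb htC
  have h2 : (⊤ : Subgroup W) ≤ ((N ⊓ centralizer {⁅n, x⁆}).map π).subgroupOf W := by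
    rw [← h1]
    refine sup_le ?_ (zpowers_le.2 ⟨_, ⟨ht, mem_centralizer_singleton_iff.2 rfl⟩, rfl⟩)
    rintro ⟨_, a, ha, rfl⟩ h3
    refine ⟨a, ⟨ha, mem_centralizer_singleton_iff.2 (fd_perp
      (hNN (commutator_mem_commutator ha hn)) ((hπ _).1 ?_)).eq⟩, rfl⟩
    rw [map_commutatorElement, commutatorElement_eq_one_iff_mul_comm]
    exact mem_centralizer_singleton_iff.1 h3.2
  have h3 : ⁅n, x⁆ ∈ center G := fd_cent_le hN hmin ⟨ht, fun a ha => by
    obtain ⟨a', ha', e⟩ := h2 (mem_top (⟨π a, a, ha, rfl⟩ : W))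
    have h4 : a'⁻¹ * a ∈ center G := QuotientGroup.eq.1 e
    have h5 := mem_centralizer_singleton_iff.1 ha'.2
    calc a * ⁅n, x⁆ = a' * (a'⁻¹ * a * ⁅n, x⁆) := by group
      _ = a' * ⁅n, x⁆ * (a'⁻¹ * a) := by rw [← mem_center_iff.1 h4]; group
      _ = _ := by rw [h5]; group⟩
  exact hnq (by rw [← map_commutatorElement, (hπ _).2 h3]; exact Commute.one_left _)

end minimal

end Cfsg.Agent.H50
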