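import Cfsg.Agent.H50.FixDim1
import Cfsg.Agent.H50.FixDim2
import Cfsg.Agent.H24.PermModule

/-!
Flavell's bound `dim C_V(x) < dim V / 2` over an algebraically closed field.
-/

set_option autoImplicit false

namespace Cfsg.Agent.H50

open Module Subgroup Cfsg.Agent.H79
open scoped commutatorElement

variable {K V : Type*} [Field K] [AddCommGroup V] [Module K V] {G : Type*} [Group G]

/-- The action of `G` on the weights of a normal subgroup. -/
@[reducible] def fdAct (N : Subgroup G) [N.Normal] (K : Type*) [Field K] : MulAction G (N →* K) where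
  smul g ν := ν.comp (MulAut.conjNormal g⁻¹ : MulAut N).toMonoidHom
  one_smul ν := by
    ext n; change ν (MulAut.conjNormal (1 : G)⁻¹ n) = ν n; rw [inv_one, map_one]; rfl
  mul_smul g h ν := by
    ext n
    change ν (MulAut.conjNormal (g * h)⁻¹ n) = ν (MulAut.conjNormal h⁻¹ (MulAut.conjNormal g⁻¹ n))
    rw [mul_inv_rev, map_mul]; rfl

theorem fd_rep_conj {M : Type*} [Monoid M] (ρ : G →* M) {N : Subgroup G} [N.Normal] (x : G) (n : N) :
    ρ x * (ρ.comp N.subtype) n = (ρ.comp N.subtype) (MulAut.conjNormal x n) * ρ x := by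
  change ρ x * ρ n = ρ (x * n * x⁻¹) * ρ x
  rw [← map_mul, ← map_mul, inv_mul_cancel_right]

theorem fd_case1 [IsAlgClosed K] [FiniteDimensional K V] [Nontrivial V] [Finite G]
    [Group.IsSolvable G] {ρ : G →* End K V} (hρ : Function.Injective ρ) (hi : Irr ρ) {x : G}
    (hgen : normalClosure {x} = ⊤) {p : ℕ} (hp : p.Prime) (h5 : 5 ≤ p) (hx : x ^ p = 1)
    {N : Subgroup G} [N.Normal] (hK : (Nat.card N : K) ≠ 0) (hc : N ≤ centralizer (N : Set G))
    (hZ : ¬ N ≤ center G) : 2 * finrank K (LinearMap.ker (ρ x - 1)) < finrank K V := by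
  classical
  haveI := Fintype.ofFinite N
  rw [Nat.card_eq_fintype_card] at hK
  set τ := ρ.comp N.subtype
  obtain ⟨U, hU, -, hU0, hUi⟩ := (inv_top τ).exists_irr top_ne_bot
  have hs : ∀ n : N, ∃ c : K, hU.res n = c • 1 := fun n => hUi.schur _ fun g => by
    rw [← map_mul, ← map_mul]; exact congrArg _ (Subtype.ext (hc g.2 n n.2))
  choose c hc' using hs
  obtain ⟨v₀, hv₀, hv0⟩ := Submodule.exists_mem_ne_zero_of_ne_bot hU0
  have hcv : ∀ n, τ n v₀ = c n • v₀ := fun n =>
    congrArg Subtype.val (LinearMap.congr_fun (hc' n) ⟨v₀, hv₀⟩)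
  let l : N →* K :=
    { toFun := c
      map_one' := smul_left_injective K hv0 (by simp only [← hcv, map_one, one_smul]; rfl)
      map_mul' := fun a b => smul_left_injective K hv0 (by
        simp only [← hcv, rep_mul_apply]
        rw [hcv b, map_smul, hcv a, smul_smul, mul_comm]) }
  letI := fdAct N K
  have hsm : ∀ (g : G) (ν : N →* K) n, (g • ν) n = ν (MulAut.conjNormal g⁻¹ n) := fun _ _ _ => rfl
  have hmap : ∀ (g : G) (ν : N →* K), ∀ v ∈ fdWt τ ν, ρ g v ∈ fdWt τ (g • ν) := fun g ν v hv n => by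
    rw [hsm, ← map_smul, ← hv, ← End.mul_apply, ← End.mul_apply (ρ g), fd_rep_conj]
    simp [τ]
  haveI : Finite (MulAction.orbit G l) := (Set.finite_range _).to_subtype
  have hl : v₀ ∈ fdWt τ l := hcv
  haveI : Nontrivial (MulAction.orbit G l) := by
    rw [← not_subsingleton_iff_nontrivial]
    intro hsub
    have h1 : ∀ g : G, g • l = l := fun g => congrArg Subtype.val
      (Subsingleton.elim (⟨g • l, g, rfl⟩ : MulAction.orbit G l) ⟨l, MulAction.mem_orbit_self l⟩)
    have h2 := (hi (fdWt τ l) fun g v hv => h1 g ▸ hmap g l v hv).resolve_left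
      fun h => hv0 ((Submodule.mem_bot K).1 (h ▸ hl))
    refine hZ fun n hn => mem_center_iff.2 fun g => hρ (LinearMap.ext fun v => ?_)
    have h3 : ∀ w, ρ n w = l ⟨n, hn⟩ • w := fun w => (h2 ▸ Submodule.mem_top : w ∈ fdWt τ l) ⟨n, hn⟩
    rw [rep_mul_apply, rep_mul_apply, h3, h3, map_smul]
  have hD : ∀ t : MulAction.orbit G l, finrank K (fdWt τ t.1) = finrank K (fdWt τ l) := by
    rintro ⟨_, g, rfl⟩
    refine le_antisymm ?_ (fdWt_finrank_le (rep_injective ρ g) (hmap g l))
    have := fdWt_finrank_le (rep_injective ρ g⁻¹) (hmap g⁻¹ (g • l))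
    rwa [inv_smul_smul] at this
  haveI := Fintype.ofFinite (MulAction.orbit G l)
  have htop : (⨆ t : MulAction.orbit G l, fdWt τ t.1) = ⊤ := by
    refine (hi _ fun g v hv => ?_).resolve_left fun h => hv0 ((Submodule.mem_bot K).1
      (h ▸ Submodule.mem_iSup_of_mem (⟨l, MulAction.mem_orbit_self l⟩ : MulAction.orbit G l) hl))
    induction hv using Submodule.iSup_induction' with
    | mem t v hv => exact Submodule.mem_iSup_of_mem (g • t) (hmap g t.1 v hv)
    | zero => rw [map_zero]; exact zero_mem _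
    | add a b _ _ ha hb => rw [map_add]; exact add_mem ha hb
  have hsum : ∀ v, ∑ t : MulAction.orbit G l, fdPr τ t.1 v = v := fun v => by
    have hv : v ∈ ⨆ t : MulAction.orbit G l, fdWt τ t.1 := htop ▸ Submodule.mem_top
    induction hv using Submodule.iSup_induction' with
    | mem t v hv =>
      rw [Finset.sum_eq_single t (fun s _ hst => fdPr_ne (fun h => hst (Subtype.ext h)) hv)
        (by simp), fdPr_self hK hv]
    | zero => simp
    | add a b _ _ ha hb => simp only [map_add, Finset.sum_add_distrib, ha, hb]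
  obtain ⟨k, hk, hle⟩ := fd_dl3 hK (fd_rep_conj ρ x) (MulAction.toPermHom G (MulAction.orbit G l) x)
    hp (by rw [← map_pow, hx, map_one]) Subtype.val Subtype.val_injective
    (fun t n => by
      change (x • t.1) _ = _
      rw [hsm, map_inv, MulAut.inv_apply_self]) _ hD
    (fun v hv => by rw [← hsum v]; exact Finset.sum_eq_zero fun t _ => hv t)
  have h3 := fd_pl (Ω := MulAction.orbit G l) hgen (hp.odd_of_ne_two (by omega)) hx
  change _ + Nat.card {ω : MulAction.orbit G l // x • ω = ω} = _ at hk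
  change _ ≤ _ * (_ + Nat.card {ω : MulAction.orbit G l // x • ω = ω}) at hle
  have h4 : 0 < Nat.card (MulAction.orbit G l) := Nat.card_pos
  have h6 : 0 < finrank K V := finrank_pos
  generalize Nat.card {ω : MulAction.orbit G l // x • ω = ω} = f at *
  generalize Nat.card (MulAction.orbit G l) = M at *
  have h7 : 2 * (k + f) < M := by
    have : 5 * k ≤ p * k := Nat.mul_le_mul_right k h5
    omega
  refine Nat.lt_of_mul_lt_mul_left (a := M) ?_
  nlinarith

/-- Conjugation on `End V`. -/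
def fdAd (ρ : G →* End K V) : G →* End K (End K V) where
  toFun g := LinearMap.mulLeft K (ρ g) * LinearMap.mulRight K (ρ g⁻¹)
  map_one' := by ext φ v; simp
  map_mul' g h := by ext φ v; simp

theorem fdAd_apply (ρ : G →* End K V) (g : G) (φ : End K V) : fdAd ρ g φ = ρ g * (φ * ρ g⁻¹) := rfl

theorem fd_case2 [IsAlgClosed K] [FiniteDimensional K V] [Nontrivial V] [Finite G]
    [Group.IsSolvable G] {ρ : G →* End K V} (hρ : Function.Injective ρ) (hi : Irr ρ) {x : G}
    (hgen : normalClosure {x} = ⊤) {p : ℕ} (hp : p.Prime) (h5 : 5 ≤ p) (hx : x ^ p = 1)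
    {N : Subgroup G} [hNn : N.Normal] (hK : (Nat.card N : K) ≠ 0)
    (hN : ¬ N ≤ centralizer (N : Set G))
    (hmin : ∀ L : Subgroup G, L.Normal → L ≤ N → L ≤ center G ∨ L = N) :
    2 * finrank K (LinearMap.ker (ρ x - 1)) < finrank K V := by
  classical
  haveI := Fintype.ofFinite N
  have hK' := hK
  rw [Nat.card_eq_fintype_card] at hK'
  have hNZ : ¬ N ≤ center G := fun h => hN (h.trans (center_le_centralizer _))
  have hNN : ∀ a b : N, ⁅(a : G), (b : G)⁆ ∈ center G := fun a b =>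
    fd_comm_le hNZ hmin (commutator_mem_commutator a.2 b.2)
  have hs : ∀ z : G, ∃ c : K, z ∈ center G → ρ z = c • 1 := fun z => by
    by_cases hz : z ∈ center G
    · obtain ⟨c, hc⟩ := hi.schur (ρ z) fun g => by
        rw [← map_mul, ← map_mul, mem_center_iff.1 hz g]
      exact ⟨c, fun _ => hc⟩
    · exact ⟨0, fun h => absurd h hz⟩
  choose ω hω using hs
  have hinj : Function.Injective fun c : K => c • (1 : End K V) := smul_left_injective K one_ne_zero
  have hω1 : ω 1 = 1 := hinj (by simp only [← hω 1 (one_mem _), map_one, one_smul])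
  have hωm : ∀ a ∈ center G, ∀ b ∈ center G, ω (a * b) = ω a * ω b := fun a ha b hb => hinj (by
    simp only [← hω _ (mul_mem ha hb), map_mul, hω a ha, hω b hb, smul_mul_smul_comm, mul_one])
  have hωi : ∀ a ∈ center G, ω a = 1 → a = 1 := fun a ha h => hρ (by
    rw [hω a ha, h, one_smul, map_one])
  have hl : ∀ a b t : N, ⁅((a * b : N) : G), (t : G)⁆ = ⁅(a : G), (t : G)⁆ * ⁅(b : G), (t : G)⁆ :=
    fun a b t => by
      have := mem_center_iff.1 (hNN b t)
      calc ⁅((a * b : N) : G), (t : G)⁆ = a * ⁅(b : G), (t : G)⁆ * (a : G)⁻¹ * ⁅(a : G), (t : G)⁆ := by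
            simp only [commutatorElement_def, coe_mul]; group
        _ = _ := by rw [this, mul_inv_cancel_right, this]
  have hr : ∀ a s t : N, ⁅(a : G), ((s * t : N) : G)⁆ = ⁅(a : G), (s : G)⁆ * ⁅(a : G), (t : G)⁆ :=
    fun a s t => by
      have := mem_center_iff.1 (hNN a t)
      calc ⁅(a : G), ((s * t : N) : G)⁆ = ⁅(a : G), (s : G)⁆ * (s * ⁅(a : G), (t : G)⁆ * (s : G)⁻¹) := by
            simp only [commutatorElement_def, coe_mul]; group
        _ = _ := by rw [this s, mul_inv_cancel_right]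
  let μ₀ : N → (N →* K) := fun t =>
    { toFun := fun n => ω ⁅(n : G), (t : G)⁆
      map_one' := by rw [coe_one, commutatorElement_one_left, hω1]
      map_mul' := fun a b => by rw [hl, hωm _ (hNN _ _) _ (hNN _ _)] }
  have hμ₀ : ∀ t n, μ₀ t n = ω ⁅(n : G), (t : G)⁆ := fun _ _ => rfl
  let χ : N → (N →* K) := fun n =>
    { toFun := fun t => ω ⁅(n : G), (t : G)⁆
      map_one' := by rw [coe_one, commutatorElement_one_right, hω1]
      map_mul' := fun a b => by rw [hr, hωm _ (hNN _ _) _ (hNN _ _)] }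
  set π := QuotientGroup.mk' (center G)
  set W := N.map π
  haveI : W.Normal := hNn.map π (QuotientGroup.mk'_surjective _)
  have hμπ : ∀ s t : N, μ₀ s = μ₀ t ↔ π s = π t := fun s t => by
    have e : ∀ n, μ₀ t n = μ₀ s n * ω ⁅(n : G), ((s⁻¹ * t : N) : G)⁆ := fun n => by
      rw [hμ₀, hμ₀, ← hωm _ (hNN _ _) _ (hNN _ _), ← hr, mul_inv_cancel_left]
    refine Iff.trans ⟨fun h => ?_, fun h => ?_⟩ QuotientGroup.eq.symm
    · refine fd_cent_le hN hmin ⟨(s⁻¹ * t).2, fun n hn => ?_⟩
      rw [← commutatorElement_eq_one_iff_mul_comm]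
      refine hωi _ (hNN ⟨n, hn⟩ (s⁻¹ * t)) ?_
      have h1 := e ⟨n, hn⟩
      rw [← h] at h1
      exact (mul_eq_left₀ ((Group.isUnit _).map (μ₀ s)).ne_zero).1 h1.symm
    · ext n
      rw [e, coe_mul, coe_inv, commutatorElement_eq_one_iff_mul_comm.2 (mem_center_iff.1 h _), hω1,
        mul_one]
  have hlift : ∀ t : W, ∃ s : N, π s = t := fun t => by
    obtain ⟨s, hs, e⟩ := t.2
    exact ⟨⟨s, hs⟩, e⟩
  choose l hl' using hlift
  set τ := (fdAd ρ).comp N.subtype
  have hmap : ∀ s t : N, ∀ φ ∈ fdWt τ (μ₀ s),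
      LinearMap.mulLeft K (ρ t) φ ∈ fdWt τ (μ₀ (t * s)) := fun s t φ hφ n => by
    have h1 : ρ n * (φ * ρ (n : G)⁻¹) = μ₀ s n • φ := hφ n
    have h2 : ρ n * ρ t = ω ⁅(n : G), (t : G)⁆ • (ρ t * ρ n) := by
      rw [← one_mul (ρ t * ρ n), ← smul_mul_assoc, ← hω _ (hNN _ _), ← map_mul, ← map_mul,
        ← map_mul, commutatorElement_def]
      congr 1; group
    change ρ n * (ρ t * φ * ρ (n : G)⁻¹) = μ₀ (t * s) n • (ρ t * φ)
    rw [hμ₀, hr, hωm _ (hNN _ _) _ (hNN _ _), mul_assoc, ← mul_assoc (ρ n), h2, smul_mul_assoc,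
      mul_assoc, h1, mul_smul_comm, smul_smul, hμ₀]
  have hinjL : ∀ t : G, Function.Injective (LinearMap.mulLeft K (ρ t)) := fun t a b h => by
    have := congrArg (ρ t⁻¹ * ·) h
    simpa [← mul_assoc, ← map_mul] using this
  have hD : ∀ t, finrank K (fdWt τ (μ₀ t)) = finrank K (fdWt τ (μ₀ 1)) := fun t => by
    have h1 := fdWt_finrank_le (hinjL _) (hmap t t⁻¹)
    have h2 := fdWt_finrank_le (hinjL _) (hmap 1 t)
    rw [inv_mul_cancel] at h1
    rw [mul_one] at h2
    exact le_antisymm h1 h2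
  have hjoint : ∀ φ, (∀ t : W, fdPr τ (μ₀ (l t)) φ = 0) → φ = 0 := fun φ h => by
    have h1 : ∑ t : N, fdPr τ (μ₀ t) φ = 0 := Finset.sum_eq_zero fun t _ => by
      rw [(hμπ t (l ⟨π t, t, t.2, rfl⟩)).2 (hl' ⟨π t, t, t.2, rfl⟩).symm]; exact h _
    simp only [fdPr_apply] at h1
    rw [← Finset.smul_sum, Finset.sum_comm, smul_eq_zero] at h1
    have h2 := h1.resolve_left (inv_ne_zero hK')
    have h3 : ∀ n : N, ∑ t : N, μ₀ t n⁻¹ • τ n φ =
        if n ∈ (center G).subgroupOf N then (Fintype.card N : K) • φ else 0 := fun n => by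
      rw [← Finset.sum_smul]
      split_ifs with hn
      · have hn' : (n : G) ∈ center G := hn
        have e : ∀ t : N, μ₀ t n⁻¹ = 1 := fun t => by
          rw [hμ₀, coe_inv, commutatorElement_eq_one_iff_mul_comm.2
            (mem_center_iff.1 (inv_mem hn') _).symm, hω1]
        have e2 : τ n φ = φ := by
          change ρ n * (φ * ρ (n : G)⁻¹) = φ
          rw [hω _ hn', smul_mul_assoc, one_mul, ← mul_smul_comm, ← one_mul (ρ _),
            ← smul_mul_assoc, ← hω _ hn', ← map_mul, mul_inv_cancel, map_one, mul_one]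
        simp [e, e2]
      · have e : χ n⁻¹ ≠ 1 := fun h => hn ((inv_mem_iff (H := (center G).subgroupOf N)).1
          (fd_cent_le hN hmin ⟨(n⁻¹).2, fun a ha => (commutatorElement_eq_one_iff_mul_comm.1
            (hωi _ (hNN n⁻¹ ⟨a, ha⟩) (DFunLike.congr_fun h ⟨a, ha⟩))).symm⟩))
        rw [show ∑ t : N, μ₀ t n⁻¹ = 0 from sum_hom_units_eq_zero (χ n⁻¹) e, zero_smul]
    rw [Finset.sum_congr rfl fun n _ => h3 n, ← Finset.sum_filter, Finset.sum_const,
      ← Nat.cast_smul_eq_nsmul K, smul_smul, smul_eq_zero] at h2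
    refine h2.resolve_left (mul_ne_zero ?_ hK')
    rw [← Fintype.card_subtype, ← Nat.card_eq_fintype_card]
    obtain ⟨m, hm⟩ := card_subgroup_dvd_card ((center G).subgroupOf N)
    rw [hm, Nat.cast_mul] at hK
    exact left_ne_zero_of_mul hK
  obtain ⟨k, hk, hle⟩ := fd_dl3 hK' (fd_rep_conj (fdAd ρ) x)
    (MulAut.toPerm W (MulAut.conjNormal (π x))) hp
    (by rw [← map_pow, ← map_pow, ← map_pow, hx, map_one, map_one, map_one])
    (fun t : W => μ₀ (l t))
    (fun s t h => Subtype.ext (by rw [← hl', ← hl']; exact (hμπ _ _).1 h))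
    (fun t n => by
      have e : μ₀ (l (MulAut.toPerm W (MulAut.conjNormal (π x)) t)) =
          μ₀ (MulAut.conjNormal x (l t)) := (hμπ _ _).2 (by
        rw [hl', MulAut.conjNormal_apply, map_mul, map_mul, map_inv, hl']; rfl)
      rw [e, hμ₀, hμ₀, MulAut.conjNormal_apply, MulAut.conjNormal_apply,
        ← conjugate_commutatorElement, mem_center_iff.1 (hNN _ _) x, mul_inv_cancel_right])
    _ (fun t => hD _) hjoint
  have hf : Nat.card {t : W // MulAut.toPerm W (MulAut.conjNormal (π x)) t = t} =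
      Nat.card ↥(W ⊓ centralizer {π x}) := by
    have e : ∀ t : W, MulAut.toPerm W (MulAut.conjNormal (π x)) t = t ↔
        (t : G ⧸ center G) ∈ centralizer {π x} := fun t => by
      rw [mem_centralizer_singleton_iff, Subtype.ext_iff, eq_comm (a := (t : G ⧸ center G) * _),
        ← mul_inv_eq_iff_eq_mul]
      rfl
    exact Nat.card_congr ⟨fun t => ⟨t.1, t.1.2, (e _).1 t.2⟩, fun t => ⟨⟨t, t.2.1⟩, (e _).2 t.2.2⟩,
      fun _ => rfl, fun _ => rfl⟩
  rw [hf] at hk hle
  have h4 := fd_il hgen hp h5 hx hN hmin hk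
  have hx1 : ρ x ≠ 1 := fun h => by
    have h1 : x = 1 := hρ (by rw [h, map_one])
    have h2 := fd_eq_top hgen (centralizer (N : Set G)) (h1 ▸ one_mem _)
    exact hN (h2 ▸ le_top)
  have h6 := fd_sq_lt hx1 (C := LinearMap.ker (fdAd ρ x - 1)) fun φ h => by
    rw [LinearMap.mem_ker, LinearMap.sub_apply, fdAd_apply, ← mul_assoc, h, mul_assoc, ← map_mul,
      mul_inv_cancel, map_one, mul_one, End.one_apply, sub_self]
  rw [finrank_linearMap] at hle
  have h7 : 0 < Nat.card W := Nat.card_pos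
  have h8 : 4 * finrank K (LinearMap.ker (fdAd ρ x - 1)) ≤ finrank K V * finrank K V :=
    Nat.le_of_mul_le_mul_left (by nlinarith) h7
  by_contra h9
  push Not at h9
  nlinarith [Nat.mul_le_mul h9 h9]

theorem fd_eq_one_of_pgroup [Nontrivial V] [Finite G] {ℓ : ℕ} [Fact ℓ.Prime] [CharP K ℓ]
    {ρ : G →* End K V} (hi : Irr ρ) {L : Subgroup G} [hLn : L.Normal] (hL : IsPGroup ℓ L) :
    ∀ g ∈ L, ρ g = 1 := by
  obtain ⟨v, -, hv0, hv⟩ := H24.exists_fixed_vector hL (K := K) (ρ.comp L.subtype) ⊤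
    (fun _ _ _ => trivial) top_ne_bot
  have h1 := (hi (fdWt (ρ.comp L.subtype) 1) fun g w hw n => by
    have h2 : ρ (g⁻¹ * n * g⁻¹⁻¹) w = w := by
      simpa using hw ⟨_, hLn.conj_mem n n.2 g⁻¹⟩
    change ρ n (ρ g w) = (1 : K) • ρ g w
    rw [one_smul]
    conv_rhs => rw [← h2]
    rw [← rep_mul_apply, ← rep_mul_apply]
    congr 2; group).resolve_left fun h => hv0 ((Submodule.mem_bot K).1
      (h ▸ (fun n => by simpa using hv n : v ∈ fdWt (ρ.comp L.subtype) 1)))
  intro g hg
  ext w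
  simpa using (h1 ▸ Submodule.mem_top : w ∈ fdWt (ρ.comp L.subtype) 1) ⟨g, hg⟩

theorem fd_irr [IsAlgClosed K] [FiniteDimensional K V] [Nontrivial V] [Finite G]
    [Group.IsSolvable G] {ℓ : ℕ} [hℓ : Fact ℓ.Prime] [CharP K ℓ] {ρ : G →* End K V}
    (hρ : Function.Injective ρ) (hi : Irr ρ) {x : G} (hx1 : x ≠ 1)
    (hgen : normalClosure {x} = ⊤) {p : ℕ} (hp : p.Prime) (h5 : 5 ≤ p) (hx : x ^ p = 1) :
    2 * finrank K (LinearMap.ker (ρ x - 1)) < finrank K V := by
  by_cases hab : (⊤ : Subgroup G) ≤ center G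
  · obtain ⟨c, hc⟩ := hi.schur (ρ x) fun g => by
      rw [← map_mul, ← map_mul, mem_center_iff.1 (hab (mem_top x)) g]
    have h1 : c ≠ 1 := fun h => hx1 (hρ (by rw [hc, h, one_smul, map_one]))
    have h2 : LinearMap.ker (ρ x - 1) = ⊥ := by
      rw [LinearMap.ker_eq_bot']
      intro v hv
      rw [hc, LinearMap.sub_apply, LinearMap.smul_apply, End.one_apply, ← one_smul K v, smul_smul,
        ← sub_smul, smul_eq_zero, mul_one, sub_eq_zero] at hv
      exact hv.resolve_left h1
    rw [h2, finrank_bot]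
    exact finrank_pos
  obtain ⟨N, ⟨hNn, hNZ⟩, hm⟩ := (wellFounded_lt (α := Subgroup G)).has_min
    {N | N.Normal ∧ ¬ N ≤ center G} ⟨⊤, inferInstance, hab⟩
  have hmin : ∀ L : Subgroup G, L.Normal → L ≤ N → L ≤ center G ∨ L = N := fun L hL hLN => by
    by_contra h
    push Not at h
    exact hm L ⟨hL, h.1⟩ (lt_of_le_of_ne hLN h.2)
  have hK : (Nat.card N : K) ≠ 0 := by
    rw [Ne, CharP.cast_eq_zero_iff K ℓ]
    intro hd
    haveI : Group.IsNilpotent N := isNilpotent_of_lowerCentralSeries_eq_bot (n := 2)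
      (commutator_eq_bot_iff_le_centralizer.2
        ((fd_comm_le hNZ hmin).trans (center_le_centralizer _)))
    obtain ⟨S⟩ : Nonempty (Sylow ℓ N) := inferInstance
    haveI : (S : Subgroup N).Normal :=
      Sylow.normal_of_normalizerCondition normalizerCondition_of_isNilpotent S
    haveI := Sylow.characteristic_of_normal S inferInstance
    have h1 := fd_eq_one_of_pgroup hi (L := (S : Subgroup N).map N.subtype)
      (S.isPGroup'.map _)
    refine S.ne_bot_of_dvd_card hd (eq_bot_iff.2 fun g hg => Subtype.ext (hρ ?_))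
    rw [h1 (g : G) ⟨g, hg, rfl⟩, coe_one, map_one]
  by_cases hc : N ≤ centralizer (N : Set G)
  · exact fd_case1 hρ hi hgen hp h5 hx hK hc hNZ
  · exact fd_case2 hρ hi hgen hp h5 hx hK hc hmin

theorem fd_closed [IsAlgClosed K] [Finite G] [Group.IsSolvable G] {ℓ : ℕ} [Fact ℓ.Prime]
    [CharP K ℓ] {x : G} (hgen : normalClosure {x} = ⊤) {p : ℕ} (hp : p.Prime) (h5 : 5 ≤ p)
    (hx : x ^ p = 1) {N : Subgroup G} [Fintype N] (hK : (Fintype.card N : K) ≠ 0) (d : ℕ) :
    ∀ {V : Type*} [AddCommGroup V] [Module K V] [FiniteDimensional K V] [Nontrivial V]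
      (ρ : G →* End K V), finrank K V = d → (∑ n : N, ρ n = 0) →
      2 * finrank K (LinearMap.ker (ρ x - 1)) < finrank K V := by
  induction d using Nat.strong_induction_on with
  | _ d ih =>
  intro V _ _ _ _ ρ hd h0
  by_cases hi : Irr ρ
  · let ρ' : G ⧸ ρ.ker →* End K V := QuotientGroup.lift _ ρ fun _ h => h
    have h1 : Function.Injective ρ' := (injective_iff_map_eq_one ρ').2 fun a ha => by
      obtain ⟨a, rfl⟩ := QuotientGroup.mk_surjective a
      exact (QuotientGroup.eq_one_iff a).2 ha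
    refine fd_irr (ℓ := ℓ) (x := (x : G ⧸ ρ.ker)) h1 (fun W hW => hi W fun g => hW g) (fun h => ?_)
      (fd_gen_map hgen (QuotientGroup.mk' _) (QuotientGroup.mk'_surjective _)) hp h5
      (by rw [← QuotientGroup.mk_pow, hx]; rfl)
    have h2 := fd_eq_top hgen ρ.ker ((QuotientGroup.eq_one_iff x).1 h)
    have h3 : ∀ g, ρ g = 1 := fun g => (h2 ▸ mem_top _ : g ∈ ρ.ker)
    simp only [h3] at h0
    rw [Finset.sum_const, Finset.card_univ, ← Nat.cast_smul_eq_nsmul K, smul_eq_zero] at h0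
    exact h0.elim hK one_ne_zero
  · obtain ⟨U, hU, h⟩ : ∃ U, Inv ρ U ∧ U ≠ ⊥ ∧ U ≠ ⊤ := by
      by_contra hcon
      exact hi fun U hU => by
        by_contra h
        push Not at h
        exact hcon ⟨U, hU, h⟩
    haveI : Nontrivial U := Submodule.nontrivial_iff_ne_bot.2 h.1
    haveI : Nontrivial (V ⧸ U) := Submodule.Quotient.nontrivial_iff.2 h.2
    have e := Submodule.finrank_quotient_add_finrank U
    have e1 : 0 < finrank K U := finrank_pos
    have e2 : 0 < finrank K (V ⧸ U) := finrank_pos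
    have h1 := ih _ (by omega) hU.res rfl (LinearMap.ext fun v => Subtype.ext (by
      have := LinearMap.congr_fun h0 v
      simpa [LinearMap.sum_apply, Inv.coe_res] using this))
    have h2 := ih _ (by omega) (fdQuot hU) rfl (LinearMap.ext fun v => by
      obtain ⟨v, rfl⟩ := U.mkQ_surjective v
      have := congrArg U.mkQ (LinearMap.congr_fun h0 v)
      simpa only [LinearMap.sum_apply, fdQuot_mk, map_sum, LinearMap.zero_apply, map_zero]
        using this)
    have h3 := fd_add hU x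
    omega

end Cfsg.Agent.H50
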