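import Cfsg.Agent.H79.Rad
import Mathlib.RingTheory.IntegralDomain
import Mathlib.LinearAlgebra.Dimension.Constructions

/-!
Fixed spaces of an operator permuting weight spaces: the dimension count used for Flavell's bound
`dim C_V(P) < dim V / 2`.
-/

set_option autoImplicit false

namespace Cfsg.Agent.H50

open Module Finset Cfsg.Agent.H79

section perm

theorem fd_exists_reps {T : Type*} [Finite T] (σ : Equiv.Perm T) {p : ℕ} (hp : p.Prime)
    (hσ : σ ^ p = 1) : ∃ (R : Finset T) (k : ℕ), p * k + Nat.card {t // σ t = t} = Nat.card T ∧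
      R.card ≤ k + Nat.card {t // σ t = t} ∧ ∀ s, ∃ r ∈ R, ∃ i : ℕ, s = (σ ^ i) r := by
  classical
  haveI := Fintype.ofFinite T
  obtain ⟨R, h1, h2⟩ := exists_reps σ hp.pos hσ (univ.filter fun t => ¬ σ t = t) (by
    intro g hg
    simp only [mem_filter, mem_univ, true_and] at hg ⊢
    refine ⟨fun h => hg (σ.injective h), fun i h0 hi h => hg ?_⟩
    have hc : i.Coprime p := (Nat.coprime_of_lt_prime h0.ne' hi hp).symm
    obtain ⟨j, -, hj⟩ := Nat.exists_mul_mod_eq_one_of_coprime hc hp.one_lt
    have h3 : σ ^ (i * j) = σ := by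
      rw [← Nat.div_add_mod (i * j) p, hj, pow_add, pow_mul, hσ, one_pow, one_mul, pow_one]
    rw [← h3, pow_mul]
    exact Equiv.Perm.pow_apply_eq_self_of_apply_eq_self h j)
  have hf : Nat.card {t // σ t = t} = (univ.filter fun t => σ t = t).card := by
    rw [Nat.card_eq_fintype_card, Fintype.card_subtype]
  refine ⟨R ∪ univ.filter fun t => σ t = t, R.card, ?_, ?_, fun s => ?_⟩
  · rw [h1, hf, add_comm, card_filter_add_card_filter_not, Nat.card_eq_fintype_card, card_univ]
  · rw [hf]; exact card_union_le _ _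
  · by_cases hs : σ s = s
    · exact ⟨s, mem_union_right _ (by simpa using hs), 0, rfl⟩
    · obtain ⟨r, hr, i, hi⟩ := h2 s (by simpa using hs)
      exact ⟨r, mem_union_left _ hr, i, hi⟩

end perm

variable {K E : Type*} [Field K] [AddCommGroup E] [Module K E]

theorem fd_dl2 [FiniteDimensional K E] {T : Type*} [Finite T] (σ : Equiv.Perm T) {p : ℕ}
    (hp : p.Prime) (hσ : σ ^ p = 1) (F : Submodule K E) (π : T → End K E)
    (W : T → Submodule K E) (D : ℕ) (hD : ∀ t, finrank K (W t) = D) (h1 : ∀ t v, π t v ∈ W t)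
    (h2 : ∀ t, ∀ w ∈ W t, π t w = w) (h3 : ∀ s t, s ≠ t → ∀ w ∈ W t, π s w = 0)
    (h4 : ∀ v, (∀ t, π t v = 0) → v = 0) (h5 : ∀ v ∈ F, ∀ t, π t v = 0 → π (σ t) v = 0) :
    ∃ k, p * k + Nat.card {t // σ t = t} = Nat.card T ∧
      Nat.card T * finrank K F ≤ finrank K E * (k + Nat.card {t // σ t = t}) := by
  classical
  haveI := Fintype.ofFinite T
  obtain ⟨R, k, hk, hR, hs⟩ := fd_exists_reps σ hp hσ
  refine ⟨k, hk, ?_⟩
  have e1 : Nat.card T * D ≤ finrank K E := by
    let φ : (∀ t, W t) →ₗ[K] E := ∑ t, (W t).subtype ∘ₗ LinearMap.proj t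
    have hφ : Function.Injective φ := by
      rw [← LinearMap.ker_eq_bot, LinearMap.ker_eq_bot']
      intro w hw
      ext s
      have h6 : π s (φ w) = w s := by
        simp only [φ, LinearMap.coe_sum, Finset.sum_apply, map_sum, LinearMap.comp_apply,
          LinearMap.proj_apply, Submodule.subtype_apply]
        rw [Finset.sum_eq_single s]
        · exact h2 s _ (w s).2
        · intro t _ hts; exact h3 s t hts.symm _ (w t).2
        · simp
      rw [← h6, hw, map_zero]; rfl
    have := LinearMap.finrank_le_finrank_of_injective hφ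
    rwa [finrank_pi_fintype, Finset.sum_congr rfl fun t _ => hD t, sum_const, card_univ,
      smul_eq_mul, ← Nat.card_eq_fintype_card] at this
  have e2 : finrank K F ≤ R.card * D := by
    let ψ : F →ₗ[K] (∀ t : R, W t) :=
      LinearMap.pi fun t => LinearMap.codRestrict (W t) (π t ∘ₗ F.subtype) fun v => h1 t v
    have hψ : Function.Injective ψ := by
      rw [← LinearMap.ker_eq_bot, LinearMap.ker_eq_bot']
      intro v hv
      refine Subtype.ext (h4 _ fun s => ?_)
      obtain ⟨r, hr, i, rfl⟩ := hs s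
      have h0 : π r v = 0 := congrArg Subtype.val (congrFun hv ⟨r, hr⟩)
      induction i with
      | zero => exact h0
      | succ i ih => rw [pow_succ', Equiv.Perm.mul_apply]; exact h5 _ v.2 _ ih
    have := LinearMap.finrank_le_finrank_of_injective hψ
    rwa [finrank_pi_fintype, Finset.sum_congr rfl fun (t : R) _ => hD t, sum_const, card_univ,
      smul_eq_mul, Fintype.card_coe] at this
  calc Nat.card T * finrank K F ≤ Nat.card T * (R.card * D) := Nat.mul_le_mul_left _ e2
    _ = Nat.card T * D * R.card := by ring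
    _ ≤ _ := Nat.mul_le_mul e1 hR

variable {N : Type*} [Group N]

/-- The weight space of `μ`. -/
def fdWt (τ : N →* End K E) (μ : N →* K) : Submodule K E where
  carrier := {v | ∀ n, τ n v = μ n • v}
  add_mem' {a b} ha hb n := by rw [map_add, ha n, hb n, smul_add]
  zero_mem' n := by simp
  smul_mem' c v hv n := by rw [map_smul, hv n, smul_comm]

theorem mem_fdWt {τ : N →* End K E} {μ : N →* K} {v : E} :
    v ∈ fdWt τ μ ↔ ∀ n, τ n v = μ n • v := Iff.rfl

/-- The projection onto the weight space of `μ`. -/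
noncomputable def fdPr [Fintype N] (τ : N →* End K E) (μ : N →* K) : End K E :=
  (Fintype.card N : K)⁻¹ • ∑ n, μ n⁻¹ • τ n

theorem fdPr_apply [Fintype N] (τ : N →* End K E) (μ : N →* K) (v : E) :
    fdPr τ μ v = (Fintype.card N : K)⁻¹ • ∑ n, μ n⁻¹ • τ n v := by
  simp [fdPr, LinearMap.sum_apply]

theorem fdPr_mem [Fintype N] (τ : N →* End K E) (μ : N →* K) (v : E) :
    fdPr τ μ v ∈ fdWt τ μ := by
  intro m
  rw [fdPr_apply, map_smul, smul_comm (μ m), map_sum, Finset.smul_sum (r := μ m)]
  refine congrArg _ (Fintype.sum_equiv (Equiv.mulLeft m) _ _ fun n => ?_)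
  rw [Equiv.coe_mulLeft, map_smul, smul_smul, ← rep_mul_apply, ← map_mul, mul_inv_rev,
    map_mul μ m, map_mul μ n⁻¹, mul_left_comm, ← map_mul μ m, mul_inv_cancel, map_one, mul_one]

theorem fdPr_self [Fintype N] (hN : (Fintype.card N : K) ≠ 0) {τ : N →* End K E} {μ : N →* K}
    {v : E} (hv : v ∈ fdWt τ μ) : fdPr τ μ v = v := by
  rw [fdPr_apply, Finset.sum_congr rfl (g := fun _ => v) fun n _ => by
    rw [hv n, smul_smul, ← map_mul, inv_mul_cancel, map_one, one_smul]]
  rw [sum_const, card_univ, ← Nat.cast_smul_eq_nsmul K, smul_smul, inv_mul_cancel₀ hN, one_smul]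

theorem fdPr_ne [Fintype N] {τ : N →* End K E} {μ ν : N →* K} (h : μ ≠ ν)
    {v : E} (hv : v ∈ fdWt τ ν) : fdPr τ μ v = 0 := by
  let χ : N →* K :=
    { toFun := fun n => μ n⁻¹ * ν n
      map_one' := by simp
      map_mul' := fun a b => by rw [mul_inv_rev, map_mul, map_mul]; ring }
  have hχ : χ ≠ 1 := fun h1 => h (MonoidHom.ext fun n => by
    have h2 : μ n⁻¹ * ν n = 1 := DFunLike.congr_fun h1 n
    rw [← mul_one (μ n), ← h2, ← mul_assoc, ← map_mul, mul_inv_cancel, map_one, one_mul])
  rw [fdPr_apply, Finset.sum_congr rfl (g := fun n => χ n • v) fun n _ => by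
    rw [hv n, smul_smul]; rfl]
  rw [← Finset.sum_smul, sum_hom_units_eq_zero χ hχ, zero_smul, smul_zero]

theorem fdPr_equiv [Fintype N] {τ : N →* End K E} {a : End K E} {α : MulAut N}
    (ha : ∀ n, a * τ n = τ (α n) * a) {μ ν : N →* K} (h : ∀ n, ν (α n) = μ n) (v : E) :
    fdPr τ ν (a v) = a (fdPr τ μ v) := by
  rw [fdPr_apply, fdPr_apply, map_smul, map_sum]
  congr 1
  refine (Fintype.sum_equiv α.toEquiv _ _ fun n => ?_).symm
  rw [map_smul, ← End.mul_apply, ha, MulEquiv.toEquiv_eq_coe, EquivLike.coe_coe, ← map_inv α, h]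
  rfl

theorem fd_dl3 [FiniteDimensional K E] [Fintype N] (hN : (Fintype.card N : K) ≠ 0)
    {τ : N →* End K E} {a : End K E} {α : MulAut N} (ha : ∀ n, a * τ n = τ (α n) * a)
    {T : Type*} [Finite T] (σ : Equiv.Perm T) {p : ℕ} (hp : p.Prime) (hσ : σ ^ p = 1)
    (μ : T → (N →* K)) (hμ : Function.Injective μ) (hσμ : ∀ t n, μ (σ t) (α n) = μ t n) (D : ℕ)
    (hD : ∀ t, finrank K (fdWt τ (μ t)) = D) (h4 : ∀ v, (∀ t, fdPr τ (μ t) v = 0) → v = 0) :
    ∃ k, p * k + Nat.card {t // σ t = t} = Nat.card T ∧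
      Nat.card T * finrank K (LinearMap.ker (a - 1)) ≤
        finrank K E * (k + Nat.card {t // σ t = t}) := by
  refine fd_dl2 σ hp hσ _ (fun t => fdPr τ (μ t)) (fun t => fdWt τ (μ t)) D hD
    (fun t v => fdPr_mem τ _ v) (fun t w hw => fdPr_self hN hw)
    (fun s t hst w hw => fdPr_ne (fun h => hst (hμ h)) hw) h4 fun v hv t h0 => ?_
  have h1 : a v = v := by
    rw [LinearMap.mem_ker, LinearMap.sub_apply, End.one_apply, sub_eq_zero] at hv; exact hv
  rw [← h1, fdPr_equiv ha (hσμ t), h0, map_zero]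

/-- An invertible operator mapping one weight space into another. -/
theorem fdWt_finrank_le [FiniteDimensional K E] {U W : Submodule K E} {a : End K E}
    (ha : Function.Injective a) (h : ∀ v ∈ U, a v ∈ W) : finrank K U ≤ finrank K W :=
  LinearMap.finrank_le_finrank_of_injective (f := a.restrict h) fun _ _ e =>
    Subtype.ext (ha (congrArg Subtype.val e))

/-- The commutant of `a ≠ 1` has dimension more than `(dim ker (a - 1)) ^ 2`. -/
theorem fd_sq_lt [FiniteDimensional K E] {a : End K E} (ha : a ≠ 1) {C : Submodule K (End K E)}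
    (hC : ∀ φ, a * φ = φ * a → φ ∈ C) :
    finrank K (LinearMap.ker (a - 1)) ^ 2 < finrank K C := by
  let Φ : ((E ⧸ LinearMap.range (a - 1)) →ₗ[K] LinearMap.ker (a - 1)) →ₗ[K] End K E :=
    { toFun := fun f => (LinearMap.ker (a - 1)).subtype ∘ₗ f ∘ₗ (LinearMap.range (a - 1)).mkQ
      map_add' := fun f g => by ext v; simp
      map_smul' := fun c f => by ext v; simp }
  have hΦ : Function.Injective Φ := by
    rw [← LinearMap.ker_eq_bot, LinearMap.ker_eq_bot']
    intro f hf
    refine Submodule.linearMap_qext _ (LinearMap.ext fun v => Subtype.ext ?_)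
    exact LinearMap.congr_fun hf v
  have h1 : ∀ f, (a - 1) * Φ f = 0 := fun f => LinearMap.ext fun v => (f _).2
  have h2 : ∀ f, Φ f * (a - 1) = 0 := fun f => LinearMap.ext fun v => by
    have : (LinearMap.range (a - 1)).mkQ ((a - 1) v) = 0 :=
      (Submodule.Quotient.mk_eq_zero _).2 ⟨v, rfl⟩
    change ((f ((LinearMap.range (a - 1)).mkQ ((a - 1) v)) : LinearMap.ker (a - 1)) : E) = 0
    rw [this, map_zero]; rfl
  have h3 : LinearMap.range Φ < C := by
    refine lt_of_le_of_ne ?_ fun h => ?_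
    · rintro _ ⟨f, rfl⟩
      refine hC _ ?_
      have e1 := h1 f
      have e2 := h2 f
      rw [sub_mul, one_mul, sub_eq_zero] at e1
      rw [mul_sub, mul_one, sub_eq_zero] at e2
      rw [e1, e2]
    · obtain ⟨f, hf⟩ : (1 : End K E) ∈ LinearMap.range Φ := h ▸ hC 1 (by simp)
      have e1 := h1 f
      rw [hf, mul_one, sub_eq_zero] at e1
      exact ha e1
  have h4 := Submodule.finrank_lt_finrank_of_lt h3
  rw [LinearMap.finrank_range_of_inj hΦ, finrank_linearMap] at h4
  have h5 := LinearMap.finrank_range_add_finrank_ker (a - 1)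
  have h6 := Submodule.finrank_quotient_add_finrank (LinearMap.range (a - 1))
  have h7 : finrank K (E ⧸ LinearMap.range (a - 1)) = finrank K (LinearMap.ker (a - 1)) := by
    omega
  rwa [h7, ← sq] at h4

/-- The quotient representation. -/
def fdQuot {σ : N →* End K E} {U : Submodule K E} (h : Inv σ U) : N →* End K (E ⧸ U) where
  toFun g := U.mapQ U (σ g) (h g)
  map_one' := by ext v; simp
  map_mul' g k := by ext v; simp

theorem fdQuot_mk {σ : N →* End K E} {U : Submodule K E} (h : Inv σ U) (g : N) (v : E) :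
    fdQuot h g (U.mkQ v) = U.mkQ (σ g v) := rfl

theorem fd_add [FiniteDimensional K E] {σ : N →* End K E} {U : Submodule K E} (h : Inv σ U)
    (x : N) : finrank K (LinearMap.ker (σ x - 1)) ≤
      finrank K (LinearMap.ker (h.res x - 1)) + finrank K (LinearMap.ker (fdQuot h x - 1)) := by
  have hm : ∀ v : LinearMap.ker (σ x - 1), σ x v = v := fun v => by
    have := v.2
    rwa [LinearMap.mem_ker, LinearMap.sub_apply, End.one_apply, sub_eq_zero] at this
  let f : LinearMap.ker (σ x - 1) →ₗ[K] LinearMap.ker (fdQuot h x - 1) :=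
    LinearMap.codRestrict _ (U.mkQ ∘ₗ Submodule.subtype _) fun v => by
      rw [LinearMap.mem_ker, LinearMap.sub_apply, End.one_apply, sub_eq_zero]
      change fdQuot h x (U.mkQ v) = U.mkQ v
      rw [fdQuot_mk, hm]
  have hk : ∀ v : LinearMap.ker f, ((v : LinearMap.ker (σ x - 1)) : E) ∈ U := fun v =>
    (Submodule.Quotient.mk_eq_zero _).1 (congrArg Subtype.val v.2)
  let g : LinearMap.ker f →ₗ[K] LinearMap.ker (h.res x - 1) :=
    LinearMap.codRestrict _ (LinearMap.codRestrict U
      (Submodule.subtype _ ∘ₗ Submodule.subtype _) hk) fun v => by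
      rw [LinearMap.mem_ker, LinearMap.sub_apply, End.one_apply, sub_eq_zero]
      exact Subtype.ext (hm _)
  have hg : Function.Injective g := fun v w e =>
    Subtype.ext (Subtype.ext (congrArg (fun z => ((z : U) : E)) (congrArg Subtype.val e)))
  have h1 := LinearMap.finrank_le_finrank_of_injective hg
  have h2 := LinearMap.finrank_range_add_finrank_ker f
  have h3 := Submodule.finrank_le (LinearMap.range f)
  omega

end Cfsg.Agent.H50
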